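import Cfsg.Agent.H993.RC.TwoBMain
import Cfsg.Agent.H452.RC.DSwap
import Cfsg.Agent.H452.RC.DecMain
import Cfsg.Agent.H398.RC.LBox
import Cfsg.Agent.H906.RC.Small

/-!
# S3510, box E10, case B, no hypotheses (helper993)
-/

set_option autoImplicit false

namespace Cfsg.Agent.H993.RC

/-- **Case B of `CaseTwo`** -/
theorem two_b : TwoB :=
  twoB Cfsg.Agent.H452.RC.d_main
    (Cfsg.Agent.H398.RC.lstmt Cfsg.Agent.H452.RC.dec_main Cfsg.Agent.H906.RC.small_stmt)
    Cfsg.Agent.H906.RC.small_stmt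

end Cfsg.Agent.H993.RC
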