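import Cfsg.Agent.H993.RC.TwoDefs

/-!
# S3510, box E10, case B: the algebra generated by commuting isometries of order prime to `p` (helper993)

* `adj_comm`, `adj_comm'`, `adj_pow`, `adj_adj`;
* `dich` : if `0`, `1` are the only selfadjoint idempotents then the algebra is a field, or it contains an
  idempotent `e` with adjoint `1 - e`.
-/

set_option autoImplicit false

namespace Cfsg.Agent.H993.RC

open Matrix Cfsg Cfsg.Agent.LieClassical.HermBasic Cfsg.Agent.LieClassical.HermSiegel
  Cfsg.Agent.ClassicalGeometry.PSUAutBasic Cfsg.Agent.ClassicalGeometry.PSUAutCount Cfsg.Agent.H380.RC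

section alg

variable {F : Type*} [Field F] {V : Type*} [AddCommGroup V] [Module F V] {s : Set (Module.End F V)}

theorem adj_comm {g : Module.End F V} (hg : ∀ a ∈ s, g * a = a * g) {a : Module.End F V}
    (ha : a ∈ Algebra.adjoin F s) : g * a = a * g := by
  have h1 : Algebra.adjoin F s ≤ Subalgebra.centralizer F {g} := by
    apply Algebra.adjoin_le
    intro b hb
    rw [SetLike.mem_coe, Subalgebra.mem_centralizer_iff]
    rintro _ rfl
    exact hg b hb
  exact (Subalgebra.mem_centralizer_iff F).1 (h1 ha) g rfl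

theorem adj_comm' (hs : ∀ a ∈ s, ∀ b ∈ s, a * b = b * a) {a b : Module.End F V}
    (ha : a ∈ Algebra.adjoin F s) (hb : b ∈ Algebra.adjoin F s) : a * b = b * a :=
  adj_comm (fun c hc => (adj_comm (fun d hd => (hs d hd c hc).symm) ha).symm) hb

theorem adj_pow [Fintype F] [Nontrivial V] (hs : ∀ a ∈ s, ∀ b ∈ s, a * b = b * a) {t : ℕ}
    (hgen : ∀ a ∈ s, a ^ (Fintype.card F ^ t) = a) {a : Module.End F V} (ha : a ∈ Algebra.adjoin F s) :
    a ^ (Fintype.card F ^ t) = a := by
  obtain ⟨p, hp⟩ := CharP.exists F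
  obtain ⟨k, hprime, hcard⟩ := FiniteField.card F p
  have := Fact.mk hprime
  have : CharP (Module.End F V) p :=
    charP_of_injective_algebraMap (algebraMap F (Module.End F V)).injective p
  have hN : Fintype.card F ^ t = p ^ ((k : ℕ) * t) := by rw [hcard, ← pow_mul]
  induction ha using Algebra.adjoin_induction with
  | mem x hx => exact hgen x hx
  | algebraMap c => rw [← map_pow, FiniteField.pow_card_pow]
  | add x y hx hy ihx ihy =>
    have hc : Commute x y := adj_comm' hs hx hy
    rw [hN] at ihx ihy ⊢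
    rw [add_pow_char_pow_of_commute p _ hc, ihx, ihy]
  | mul x y hx hy ihx ihy =>
    have hc : Commute x y := adj_comm' hs hx hy
    rw [hc.mul_pow, ihx, ihy]

/-- the exponent -/
theorem exists_exp [Fintype F] {M : ℕ} (hM : (Fintype.card F).Coprime M) :
    ∃ t, 0 < t ∧ ∀ a : Module.End F V, a ^ M = 1 → a ^ (Fintype.card F ^ t) = a := by
  have hM0 : 0 < M := by
    rcases Nat.eq_zero_or_pos M with h | h
    · rw [h, Nat.coprime_zero_right] at hM
      have := Fintype.one_lt_card (α := F)
      omega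
    · exact h
  refine ⟨M.totient, Nat.totient_pos.2 hM0, fun a ha => ?_⟩
  have h1 := Nat.ModEq.pow_totient hM
  rw [← Nat.mod_add_div (Fintype.card F ^ M.totient) M, pow_add, pow_mul, ha, one_pow, mul_one, h1]
  have h2 : a ^ 1 = a ^ (1 % M) := by
    conv_lhs => rw [← Nat.mod_add_div 1 M]
    rw [pow_add, pow_mul, ha, one_pow, mul_one]
  rw [← h2, pow_one]

end alg

section herm

variable {F : Type*} [Field F] [Fintype F] {n q : ℕ} {s : Set (Module.End F (Fin n → F))}

/-- adjoints -/
theorem adj_adj (hF : Fintype.card F = q ^ 2)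
    (hadj : ∀ a ∈ s, ∃ b ∈ Algebra.adjoin F s, ∀ v w, hermForm n F q (a v) w = hermForm n F q v (b w))
    {a : Module.End F (Fin n → F)} (ha : a ∈ Algebra.adjoin F s) :
    ∃ b ∈ Algebra.adjoin F s, ∀ v w, hermForm n F q (a v) w = hermForm n F q v (b w) := by
  induction ha using Algebra.adjoin_induction with
  | mem x hx => exact hadj x hx
  | algebraMap c =>
    refine ⟨algebraMap F _ (c ^ q), Subalgebra.algebraMap_mem _ _, fun v w => ?_⟩
    rw [Module.algebraMap_end_apply, Module.algebraMap_end_apply, herm_smul_left, herm_smul_right, pow_q_pow_q hF]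
  | add x y hx hy ihx ihy =>
    obtain ⟨b, hb, h1⟩ := ihx
    obtain ⟨c, hc, h2⟩ := ihy
    refine ⟨b + c, Subalgebra.add_mem _ hb hc, fun v w => ?_⟩
    rw [LinearMap.add_apply, LinearMap.add_apply, herm_add_left, herm_add_right hF, h1, h2]
  | mul x y hx hy ihx ihy =>
    obtain ⟨b, hb, h1⟩ := ihx
    obtain ⟨c, hc, h2⟩ := ihy
    refine ⟨c * b, Subalgebra.mul_mem _ hc hb, fun v w => ?_⟩
    rw [Module.End.mul_apply, Module.End.mul_apply, h1, h2]

/-- uniqueness of adjoints -/
theorem herm_ext (hF : Fintype.card F = q ^ 2) {a b : Module.End F (Fin n → F)}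
    (h : ∀ v w, hermForm n F q v (a w) = hermForm n F q v (b w)) : a = b := by
  refine LinearMap.ext fun w => ?_
  rw [← sub_eq_zero]
  apply herm_nondeg hF (q := q)
  intro v
  apply herm_eq_zero_swap hF
  rw [herm_sub_right hF, h, sub_self]

/-- **Dichotomy** -/
theorem dich (hF : Fintype.card F = q ^ 2) (hs : ∀ a ∈ s, ∀ b ∈ s, a * b = b * a)
    (hadj : ∀ a ∈ s, ∃ b ∈ Algebra.adjoin F s, ∀ v w, hermForm n F q (a v) w = hermForm n F q v (b w))
    {M : ℕ} (hM : 2 ≤ M) (hpow : ∀ a ∈ Algebra.adjoin F s, a ^ M = a)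
    (hid : ∀ e ∈ Algebra.adjoin F s, e * e = e → (∀ v w, hermForm n F q (e v) w = hermForm n F q v (e w)) →
      e = 0 ∨ e = 1) :
    (∃ e ∈ Algebra.adjoin F s, e * e = e ∧ ∀ v w, hermForm n F q (e v) w = hermForm n F q v ((1 - e) w)) ∨
      ∀ a ∈ Algebra.adjoin F s, a ≠ 0 → ∃ b ∈ Algebra.adjoin F s, a * b = 1 := by
  by_cases hc : ∃ e ∈ Algebra.adjoin F s, e * e = e ∧ e ≠ 0 ∧ e ≠ 1
  · left
    obtain ⟨e, he, hee, he0, he1⟩ := hc
    obtain ⟨e', he', hadj'⟩ := adj_adj hF hadj he
    have hcm : e * e' = e' * e := adj_comm' hs he he'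
    have hadj'' : ∀ v w, hermForm n F q (e' v) w = hermForm n F q v (e w) := by
      intro v w
      rw [herm_swap hF w, ← hadj', ← herm_swap hF]
    have hee' : e' * e' = e' := by
      apply herm_ext hF (q := q)
      intro v w
      rw [Module.End.mul_apply, ← hadj', ← hadj', ← hadj', ← Module.End.mul_apply, hee]
    have h1 : e * e' = 0 := by
      rcases hid (e * e') (Subalgebra.mul_mem _ he he') (by
        rw [mul_assoc, ← mul_assoc e' e, ← hcm, mul_assoc e, hee', ← mul_assoc, hee]) (fun v w => by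
          rw [Module.End.mul_apply, hadj', hadj'', ← Module.End.mul_apply]) with h | h
      · exact h
      · exfalso
        apply he1
        calc e = e * (e * e') := by rw [h, mul_one]
          _ = e * e' := by rw [← mul_assoc, hee]
          _ = 1 := h
    have h1' : e' * e = 0 := by rw [← hcm, h1]
    have h2 : e + e' = 1 := by
      rcases hid (e + e') (Subalgebra.add_mem _ he he') (by
        rw [mul_add, add_mul, add_mul, hee, hee', h1, h1', add_zero, zero_add]) (fun v w => by
          rw [LinearMap.add_apply, LinearMap.add_apply, herm_add_left, herm_add_right hF, hadj', hadj'', add_comm]) with h | h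
      · exfalso
        apply he0
        have h3 : e * (e + e') = 0 := by rw [h, mul_zero]
        rwa [mul_add, hee, h1, add_zero] at h3
      · exact h
    refine ⟨e, he, hee, fun v w => ?_⟩
    rw [← h2, add_sub_cancel_left]
    exact hadj' v w
  · right
    push Not at hc
    intro a ha ha0
    obtain ⟨m, rfl⟩ : ∃ m, M = m + 2 := ⟨M - 2, by omega⟩
    have hap := hpow a ha
    have h1 : a ^ (m + 1) * a ^ (m + 1) = a ^ (m + 1) := by
      rw [← pow_add, show m + 1 + (m + 1) = m + 2 + m by ring, pow_add, hap, ← pow_succ']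
    have h2 : a ^ (m + 1) ≠ 0 := by
      intro h
      apply ha0
      rw [← hap, show m + 2 = m + 1 + 1 by ring, pow_succ, h, zero_mul]
    have h3 := hc _ (Subalgebra.pow_mem _ ha _) h1 h2
    exact ⟨a ^ m, Subalgebra.pow_mem _ ha _, by rw [← pow_succ', h3]⟩

end herm

end Cfsg.Agent.H993.RC
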