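import Cfsg.Agent.H993.RC.TwoN

/-!
# S3510, box E10, case B: assembly (helper993)
-/

set_option autoImplicit false
set_option linter.unusedSectionVars false

namespace Cfsg.Agent.H993.RC

open Matrix Module Cfsg Cfsg.Agent.LieClassical.HermBasic Cfsg.Agent.LieClassical.HermSiegel
  Cfsg.Agent.ClassicalGeometry.PSUAutBasic Cfsg.Agent.ClassicalGeometry.PSUAutCount Cfsg.Agent.H380.RC
  Cfsg.Agent.H398.RC

/-- **The case of a field** -/
theorem case_K (hD : DStmt) (hL : LStmt) (hsm : SmallStmt) :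
    NoC fun {_ _ _ _ _ F _ _ n q} _ {ι} _ f r => (∀ i : ι, Lin (f i)) ∧
      H106.RC.IH (Nat.card (PSU n F q)) ∧
      ∃ i₀ : ι, ¬ (r i₀).Coprime q ∧ ∃ (K : Type) (_ : Field K) (_ : Fintype K) (_ : Algebra F K)
        (_ : Module K (Fin n → F)) (_ : IsScalarTower F K (Fin n → F)),
        (∀ a : K, ∃ b : K, ∀ v w : Fin n → F, hermForm n F q (a • v) w = hermForm n F q v (b • w)) ∧
        (∀ (i : ι) (a : K) (v : Fin n → F), f i (a • v) = a • f i v) ∧
        ∀ j : ι, j ≠ i₀ → ∃ a : K, ∀ v, f j v = a • v := by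
  intro G Ω _ _ _ _ _ N F _ _ n q U ι _ x f r hU hcov ⟨hl, hIH, i₀, h0, K, _, _, _, _, _, hadj, hcomm, hS⟩
  classical
  have hn0 : 0 < n := by have := U.hn; omega
  obtain ⟨l, m, hn, hodd, hcK, hfl, ψ, hψ⟩ := kstruct U.hF hn0 hadj
  have hm : m = finrank K (Fin n → F) := by
    rw [← LinearEquiv.finrank_eq ψ, Module.finrank_fin_fun]
  -- `K ≠ F`
  have hl1 : l ≠ 1 := by
    rintro rfl
    obtain ⟨j, hj⟩ := H106.RC.Cov.two U.env hcov hU.pf.ne i₀
    apply hU.pf.ne j
    rw [(hU.lft j).eq_one_iff]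
    obtain ⟨a, ha⟩ := hS j hj
    have h1 := finrank_eq_one_iff_of_nonzero' (1 : K) one_ne_zero |>.1 hfl a
    obtain ⟨c, hc⟩ := h1
    refine ⟨c, fun v => ?_⟩
    rw [ha, ← hc, smul_assoc, one_smul]
  have hl3 : 3 ≤ l := by
    obtain ⟨k, hk⟩ := hodd
    omega
  have hm0 : m ≠ 0 := by
    rintro rfl
    omega
  by_cases h3 : 3 ≤ m
  · exact hL U x f r hU hcov ⟨K, inferInstance, inferInstance, inferInstance, inferInstance, inferInstance, hadj,
      hcomm, by omega, by omega, hIH⟩
  by_cases h2 : m = 2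
  · subst h2
    have hQ : 4 ≤ q ^ l :=
      calc 4 ≤ 2 ^ 3 := by norm_num
        _ ≤ q ^ 3 := Nat.pow_le_pow_left (two_le U.hF) 3
        _ ≤ q ^ l := Nat.pow_le_pow_right (by have := two_le U.hF; omega) hl3
    have h : K2 q l ψ := ⟨U.hF, hcK, hQ, hψ⟩
    exact h.main hD hsm hU hcov hl h0 hcomm hS hodd hl3 hn hIH
  · have h1 : m = 1 := by omega
    subst h1
    apply hU.pf.ne i₀
    rw [(hU.lft i₀).eq_one_iff]
    refine ⟨1, fun v => ?_⟩
    obtain ⟨w, rfl⟩ := ψ.surjective v
    have h4 : w = w 0 • (fun _ => (1 : K)) := by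
      funext i
      fin_cases i
      simp
    have h5 : ∀ u : Fin n → F, ∃ a : K, u = a • ψ (fun _ => (1 : K)) := by
      intro u
      obtain ⟨w, rfl⟩ := ψ.surjective u
      refine ⟨w 0, ?_⟩
      rw [← map_smul]
      congr 1
      funext i
      fin_cases i
      simp
    obtain ⟨a, ha⟩ := h5 (f i₀ (ψ (fun _ => (1 : K))))
    have h6 := K2.eig hU h0 hcomm ha
    rw [h4, map_smul, hcomm, h6, one_smul]

/-- **Case B** -/
theorem twoB (hD : DStmt) (hL : LStmt) (hsm : SmallStmt) : TwoB := by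
  intro G Ω _ _ _ _ _ N F _ _ n q U ι _ x f r hU hcov ⟨h42, hl, hIH, i₀, h0, hA⟩
  classical
  have hF := U.hF
  have hn := U.hn
  have hNe : Nonempty (Fin n) := ⟨⟨0, by omega⟩⟩
  -- the linear maps
  let T : ι → Module.End F (Fin n → F) := fun i => lmap (hU.lft i) (hl i)
  have hT : ∀ i v, T i v = f i v := fun i v => rfl
  let s : Set (Module.End F (Fin n → F)) := {a | ∃ j, j ≠ i₀ ∧ a = T j}
  have hTc : ∀ i j, T i * T j = T j * T i := by
    intro i j
    refine LinearMap.ext fun v => ?_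
    exact hU.comm i j v
  have hs : ∀ a ∈ s, ∀ b ∈ s, a * b = b * a := by
    rintro _ ⟨i, -, rfl⟩ _ ⟨j, -, rfl⟩
    exact hTc i j
  -- everything commutes with the algebra
  have hcom : ∀ (i : ι) (a : Module.End F (Fin n → F)), a ∈ Algebra.adjoin F s → ∀ v, f i (a v) = a (f i v) := by
    intro i a ha v
    have h1 := adj_comm (g := T i) (by rintro _ ⟨j, -, rfl⟩; exact hTc i j) ha
    exact LinearMap.congr_fun h1 v
  -- adjoints
  have hadj : ∀ a ∈ s, ∃ b ∈ Algebra.adjoin F s, ∀ v w, hermForm n F q (a v) w = hermForm n F q v (b w) := by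
    rintro _ ⟨j, hj, rfl⟩
    obtain ⟨k, hk⟩ := hU.ord j
    have h1 : 1 ≤ r j ^ k := Nat.one_le_pow _ _ (hU.pf.prime j).pos
    refine ⟨T j ^ (r j ^ k - 1), Subalgebra.pow_mem _ (Algebra.subset_adjoin (show T j ∈ s from ⟨j, hj, rfl⟩)) _, fun v w => ?_⟩
    have h2 : w = f j ((T j ^ (r j ^ k - 1)) w) := by
      have h3 : (T j ^ (r j ^ k)) w = w := by rw [lmap_pow, hk]
      rw [show r j ^ k = r j ^ k - 1 + 1 by omega, pow_succ', Module.End.mul_apply] at h3
      exact h3.symm
    conv_lhs => rw [h2]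
    exact lin_herm (hU.lft j) (hl j) v _
  -- the exponent
  obtain ⟨M, hM, hpow⟩ : ∃ M, 2 ≤ M ∧ ∀ a ∈ Algebra.adjoin F s, a ^ M = a := by
    have : Fintype ι := Fintype.ofFinite ι
    choose k hk using hU.ord
    let M := ∏ j ∈ Finset.univ.filter (fun j => j ≠ i₀), r j ^ k j
    have hcop : (Fintype.card F).Coprime M := by
      rw [hF]
      apply Nat.Coprime.pow_left
      apply Nat.Coprime.prod_right
      intro j hj
      rw [Finset.mem_filter] at hj
      exact ((fam_coprime hU h0 hj.2).pow_left _).symm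
    obtain ⟨t, ht, htp⟩ := exists_exp (V := Fin n → F) hcop
    refine ⟨Fintype.card F ^ t, ?_, fun a ha => adj_pow hs ?_ ha⟩
    · calc 2 ≤ Fintype.card F := Fintype.one_lt_card
        _ = Fintype.card F ^ 1 := (pow_one _).symm
        _ ≤ Fintype.card F ^ t := Nat.pow_le_pow_right Fintype.card_pos ht
    · rintro _ ⟨j, hj, rfl⟩
      apply htp
      obtain ⟨c, hc⟩ : r j ^ k j ∣ M := Finset.dvd_prod_of_mem (fun j => r j ^ k j) (by simp [hj])
      have h1 : T j ^ (r j ^ k j) = 1 := by
        refine LinearMap.ext fun v => ?_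
        rw [lmap_pow, hk]
        rfl
      rw [hc, pow_mul, h1, one_pow]
  -- selfadjoint idempotents
  have hid : ∀ e ∈ Algebra.adjoin F s, e * e = e → (∀ v w, hermForm n F q (e v) w = hermForm n F q v (e w)) →
      e = 0 ∨ e = 1 := by
    intro e he hee hadj'
    by_contra hcon
    push Not at hcon
    have key : ∀ a : Module.End F (Fin n → F), a ∈ Algebra.adjoin F s → a * a = a →
        (∀ v w, hermForm n F q (a v) w = hermForm n F q v (a w)) → a ≠ 1 → ∀ v, f i₀ (a v) = a v := by
      intro a ha haa haadj ha1 v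
      refine hA (LinearMap.range a) ?_ ?_ ?_ (a v) ⟨v, rfl⟩
      · rintro _ ⟨w, rfl⟩ hw
        apply herm_nondeg hF (q := q)
        intro z
        have h1 := hw (a z) ⟨z, rfl⟩
        rwa [← haadj, ← Module.End.mul_apply, haa] at h1
      · intro htop
        apply ha1
        refine LinearMap.ext fun w => ?_
        have hw : w ∈ LinearMap.range a := by rw [htop]; trivial
        obtain ⟨z, rfl⟩ := hw
        rw [← Module.End.mul_apply, haa]
        rfl
      · rintro i _ ⟨w, rfl⟩
        exact ⟨f i w, (hcom i a ha w).symm⟩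
    have h1 := key e he hee hadj' hcon.2
    have h2 := key (1 - e) (Subalgebra.sub_mem _ (Subalgebra.one_mem _) he) (by
      rw [mul_sub, sub_mul, sub_mul, hee, one_mul, mul_one, one_mul, sub_self, sub_zero]) (by
      intro v w
      rw [LinearMap.sub_apply, LinearMap.sub_apply, herm_sub_left, herm_sub_right hF, hadj']
      rfl) (by
      intro h3
      exact hcon.1 (sub_eq_self.1 h3))
    apply hU.pf.ne i₀
    rw [(hU.lft i₀).eq_one_iff]
    refine ⟨1, fun v => ?_⟩
    have h3 : v = e v + (1 - e) v := by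
      rw [LinearMap.sub_apply]
      change v = e v + (v - e v)
      abel
    rw [one_smul]
    nth_rewrite 1 [h3]
    rw [Ind.map_add (hU.lft i₀), h1, h2, ← h3]
  rcases dich hF hs hadj hM hpow hid with ⟨e, he, hee, hadj'⟩ | hfld
  · -- two totally singular halves
    refine case_D hD hsm U x f r hU hcov ⟨hl, hIH, i₀, h0, LinearMap.range e, LinearMap.range (1 - e), ?_, ?_, ?_, ?_⟩
    · rintro _ ⟨v, rfl⟩ _ ⟨w, rfl⟩
      have h1 : (1 - e) (e w) = 0 := by
        rw [← Module.End.mul_apply, sub_mul, hee, one_mul, sub_self]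
        rfl
      rw [hadj', h1, herm_zero_right hF]
    · rintro _ ⟨v, rfl⟩ _ ⟨w, rfl⟩
      have h1 : ∀ v w, hermForm n F q ((1 - e) v) w = hermForm n F q v (e w) := by
        intro v w
        rw [herm_swap hF w, ← hadj' w v, ← herm_swap hF]
      have h2 : e ((1 - e) w) = 0 := by
        rw [← Module.End.mul_apply, mul_sub, hee, mul_one, sub_self]
        rfl
      rw [h1, h2, herm_zero_right hF]
    · constructor
      · rw [Submodule.disjoint_def]
        rintro _ ⟨v, rfl⟩ ⟨w, hw⟩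
        have h1 : e ((1 - e) w) = 0 := by
          rw [← Module.End.mul_apply, mul_sub, hee, mul_one, sub_self]
          rfl
        rw [hw, ← Module.End.mul_apply, hee] at h1
        exact h1
      · rw [codisjoint_iff, eq_top_iff]
        intro v _
        have h3 : v = e v + (1 - e) v := by
          rw [LinearMap.sub_apply]
          change v = e v + (v - e v)
          abel
        rw [h3]
        exact Submodule.add_mem_sup ⟨v, rfl⟩ ⟨v, rfl⟩
    · intro i
      constructor
      · rintro _ ⟨v, rfl⟩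
        exact ⟨f i v, (hcom i e he v).symm⟩
      · rintro _ ⟨v, rfl⟩
        exact ⟨f i v, (hcom i (1 - e) (Subalgebra.sub_mem _ (Subalgebra.one_mem _) he) v).symm⟩
  · -- a field
    have hfield : IsField (Algebra.adjoin F s) := by
      refine ⟨⟨0, 1, fun h => ?_⟩, fun a b => Subtype.ext (adj_comm' hs a.2 b.2), fun {a} ha => ?_⟩
      · have h1 : (0 : Module.End F (Fin n → F)) = 1 := congrArg Subtype.val h
        exact zero_ne_one h1
      · obtain ⟨b, hb, hab⟩ := hfld a.1 a.2 (fun h => ha (Subtype.ext h))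
        exact ⟨⟨b, hb⟩, Subtype.ext hab⟩
    have hfinE : Finite (Module.End F (Fin n → F)) := Module.finite_of_finite F
    have hfinR : Finite (Algebra.adjoin F s) := Subtype.finite
    refine case_K hD hL hsm U x f r hU hcov ⟨hl, hIH, i₀, h0, Algebra.adjoin F s, hfield.toField, Fintype.ofFinite _,
      (inferInstance : Algebra F (Algebra.adjoin F s)), (inferInstance : Module (Algebra.adjoin F s) (Fin n → F)),
      (inferInstance : IsScalarTower F (Algebra.adjoin F s) (Fin n → F)), ?_, ?_, ?_⟩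
    · intro a
      obtain ⟨b, hb, hab⟩ := adj_adj hF hadj a.2
      exact ⟨⟨b, hb⟩, hab⟩
    · intro i a v
      exact hcom i a.1 a.2 v
    · intro j hj
      exact ⟨⟨T j, Algebra.subset_adjoin ⟨j, hj, rfl⟩⟩, fun v => rfl⟩

end Cfsg.Agent.H993.RC
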