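import Cfsg.Agent.H993.RC.TwoAlg

/-!
# S3510, box E10, case B: two totally singular halves (helper993)
-/

set_option autoImplicit false

namespace Cfsg.Agent.H993.RC

open Matrix Cfsg Cfsg.Agent.LieClassical.HermBasic Cfsg.Agent.LieClassical.HermSiegel
  Cfsg.Agent.ClassicalGeometry.PSUAutBasic Cfsg.Agent.ClassicalGeometry.PSUAutCount Cfsg.Agent.H380.RC

section ts

variable {F : Type*} [Field F] [Fintype F] {n q : ℕ}

theorem finrank_le_of_ts (hF : Fintype.card F = q ^ 2) {W W' : Submodule F (Fin n → F)} (hts' : TS q W')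
    (hc : IsCompl W W') : Module.finrank F W' ≤ Module.finrank F W := by
  classical
  let φ : W' → Module.Dual F W := fun w' =>
    { toFun := fun w => hermForm n F q (w : Fin n → F) (w' : Fin n → F)
      map_add' := fun a b => herm_add_left _ _ _
      map_smul' := fun c a => herm_smul_left _ _ _ }
  have hφ : Function.Injective φ := by
    intro a b hab
    apply Subtype.ext
    rw [← sub_eq_zero]
    apply herm_nondeg hF (q := q)
    intro v
    apply herm_eq_zero_swap hF
    have hv : v ∈ W ⊔ W' := by rw [hc.sup_eq_top]; trivial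
    obtain ⟨w, hw, w', hw', rfl⟩ := Submodule.mem_sup.1 hv
    have h1 : hermForm n F q w (a : Fin n → F) = hermForm n F q w (b : Fin n → F) :=
      LinearMap.congr_fun hab ⟨w, hw⟩
    rw [herm_add_left, herm_sub_right hF, h1, sub_self, zero_add]
    exact hts' _ hw' _ (W'.sub_mem a.2 b.2)
  have : Finite (Module.Dual F W) := Module.finite_of_finite F
  have h1 := Nat.card_le_card_of_injective φ hφ
  rw [Module.natCard_eq_pow_finrank (K := F) (V := W'), Module.natCard_eq_pow_finrank (K := F) (V := Module.Dual F W),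
    Subspace.dual_finrank_eq] at h1
  exact (Nat.pow_le_pow_iff_right Finite.one_lt_card).1 h1

theorem finrank_of_ts (hF : Fintype.card F = q ^ 2) {W W' : Submodule F (Fin n → F)} (hts : TS q W) (hts' : TS q W')
    (hc : IsCompl W W') : n = 2 * Module.finrank F W := by
  have h1 := finrank_le_of_ts hF hts' hc
  have h2 := finrank_le_of_ts hF hts hc.symm
  have h3 := Submodule.finrank_add_eq_of_isCompl hc
  rw [Module.finrank_fin_fun] at h3
  omega

end ts

/-- **The case of two totally singular halves** -/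
theorem case_D (hD : DStmt) (hsm : SmallStmt) :
    NoC fun {_ _ _ _ _ F _ _ n q} _ {ι} _ f r => (∀ i : ι, Lin (f i)) ∧
      H106.RC.IH (Nat.card (PSU n F q)) ∧
      ∃ i₀ : ι, ¬ (r i₀).Coprime q ∧ ∃ W W' : Submodule F (Fin n → F), TS q W ∧ TS q W' ∧ IsCompl W W' ∧
        ∀ i : ι, Stab (f i) W ∧ Stab (f i) W' := by
  intro G Ω _ _ _ _ _ N F _ _ n q U ι _ x f r hU hcov ⟨hl, hIH, i₀, h0, W, W', hW, hW', hc, hst⟩
  have hF := U.hF
  have hn := finrank_of_ts hF hW hW' hc
  refine hD U x f r hU hcov ⟨W, W', hW, hW', hc, hst, ?_⟩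
  by_cases hd : Module.finrank F W = 2
  · right
    -- `f i₀` is not the identity on `W`
    have hT : ∃ v ∈ W, f i₀ v ≠ v := by
      by_contra hcon
      push Not at hcon
      have hcon' : ∀ v ∈ W', f i₀ v = v := by
        intro v hv
        rw [← sub_eq_zero]
        apply herm_nondeg hF (q := q)
        intro z
        apply herm_eq_zero_swap hF
        have hz : z ∈ W ⊔ W' := by rw [hc.sup_eq_top]; trivial
        obtain ⟨w, hw, w', hw', rfl⟩ := Submodule.mem_sup.1 hz
        rw [herm_add_left, herm_sub_right hF, hW' _ hw' _ (W'.sub_mem ((hst i₀).2 v hv) hv), add_zero, sub_eq_zero]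
        have h1 := lin_herm (hU.lft i₀) (hl i₀) w v
        rwa [hcon w hw] at h1
      apply hU.pf.ne i₀
      rw [(hU.lft i₀).eq_one_iff]
      refine ⟨1, fun v => ?_⟩
      have hv : v ∈ W ⊔ W' := by rw [hc.sup_eq_top]; trivial
      obtain ⟨w, hw, w', hw', rfl⟩ := Submodule.mem_sup.1 hv
      rw [Ind.map_add (hU.lft i₀), hcon w hw, hcon' w' hw', one_smul]
    obtain ⟨v, hv, hv1⟩ := hT
    obtain ⟨e, -, -, -, -, -, -, -, hS⟩ := fam_two hU hl h0 hd (fun i => (hst i).1) hv hv1
    intro i j hi hj
    have h1 : i = i₀ := by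
      by_contra h
      exact hi (hS i h)
    have h2 : j = i₀ := by
      by_contra h
      exact hj (hS j h)
    rw [h1, h2]
  · left
    exact (hsm U.hF U.hn U.h32 hIH).2.2.2.1 _ hn (fun h => hd h.1)

end Cfsg.Agent.H993.RC
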