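import Cfsg.Agent.H380.RC.EStmt
import Cfsg.Agent.H380.RC.Point
import Cfsg.Agent.ClassicalGeometry.HermOrtho

/-!
# S3510, family E, box E10 (`CaseTwo`): common definitions and lemmas (helper993)

* `TwoB` : the statement of case B (no proper invariant nondegenerate subspace on which `f i₀` is not the identity);
* `lin_herm` : a linear lift is an isometry;
* `fam_char`, `fam_pow` : `r i₀` is the characteristic, `(f i₀)^[p] = id`;
* `fam_scal` : if `f i₀` is a scalar on `A` then it is the identity on `A`;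
* `fam_two` : the structure of an invariant plane on which `f i₀` is not the identity.
-/

set_option autoImplicit false

namespace Cfsg.Agent.H993.RC

open Matrix Cfsg Cfsg.Agent.LieClassical.HermBasic Cfsg.Agent.LieClassical.HermSiegel
  Cfsg.Agent.ClassicalGeometry.PSUAutBasic Cfsg.Agent.ClassicalGeometry.PSUAutCount Cfsg.Agent.H380.RC

/-- case B of `CaseTwo` -/
def TwoB : Prop :=
  NoC fun {_ _ _ _ _ F _ _ n q} _ {ι} _ f r => ¬ (n = 4 ∧ q = 2) ∧ (∀ i : ι, Lin (f i)) ∧
    H106.RC.IH (Nat.card (PSU n F q)) ∧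
    ∃ i₀ : ι, ¬ (r i₀).Coprime q ∧ ∀ A : Submodule F (Fin n → F), NDeg q A → A ≠ ⊤ → (∀ i : ι, Stab (f i) A) →
      ∀ v ∈ A, f i₀ v = v

section lin

variable {G Ω : Type*} [Group G] [MulAction G Ω] {N : Subgroup G} {F : Type*} [Field F] [Fintype F] {n q : ℕ}
  {U : UEnv G Ω N F n q} {x : G} {f : (Fin n → F) → (Fin n → F)}

/-- a linear lift is an isometry -/
theorem lin_herm (h : U.Lft x f) (hl : Lin f) (v w : Fin n → F) :
    hermForm n F q (f v) (f w) = hermForm n F q v w := by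
  obtain ⟨ρ, hs, hh⟩ := Ind.exists_rho h
  have hρ : ∀ b : F, ρ b = b := by
    intro b
    have hn := U.hn
    let e : Fin n → F := Pi.single ⟨0, by omega⟩ 1
    have he : e ≠ 0 := by
      intro h0
      have := congrFun h0 ⟨0, by omega⟩
      simp [e] at this
    have hfe : f e ≠ 0 := by
      intro h0
      rw [← Ind.map_zero h] at h0
      exact he (Ind.injective h h0)
    have h1 := hl b e
    rw [hs] at h1
    have h2 : (ρ b - b) • f e = 0 := by rw [sub_smul, h1, sub_self]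
    exact sub_eq_zero.1 ((smul_eq_zero.1 h2).resolve_right hfe)
  rw [hh, hρ]

/-- the linear map of a linear lift -/
def lmap (h : U.Lft x f) (hl : Lin f) : Module.End F (Fin n → F) :=
  { toFun := f, map_add' := Ind.map_add h, map_smul' := hl }

theorem lmap_apply (h : U.Lft x f) (hl : Lin f) (v : Fin n → F) : lmap h hl v = f v := rfl

theorem lmap_pow (h : U.Lft x f) (hl : Lin f) (k : ℕ) (v : Fin n → F) : (lmap h hl ^ k) v = f^[k] v := by
  induction k generalizing v with
  | zero => rfl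
  | succ k ih => rw [pow_succ, Module.End.mul_apply, ih, Function.iterate_succ_apply]; rfl

omit [Fintype F] in
theorem iter_smul (hl : Lin f) (k : ℕ) (c : F) (v : Fin n → F) : f^[k] (c • v) = c • f^[k] v := by
  induction k generalizing v with
  | zero => rfl
  | succ k ih => rw [Function.iterate_succ_apply, hl, ih, Function.iterate_succ_apply]

omit [Fintype F] in
theorem iter_eig (hl : Lin f) {c : F} {v : Fin n → F} (hv : f v = c • v) (k : ℕ) : f^[k] v = c ^ k • v := by
  induction k with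
  | zero => simp
  | succ k ih => rw [Function.iterate_succ_apply, hv, iter_smul hl, ih, smul_smul, pow_succ']

end lin

section chr

variable {F : Type*} [Field F]

/-- `p`-power roots of unity are trivial in characteristic `p` -/
theorem eq_one_of_pow_char {p : ℕ} [Fact p.Prime] [CharP F p] {c : F} {k : ℕ} (h : c ^ p ^ k = 1) : c = 1 := by
  have h1 : (c - 1) ^ p ^ k = 0 := by rw [sub_pow_char_pow, h, one_pow, sub_self]
  exact sub_eq_zero.1 (pow_eq_zero_iff (pow_ne_zero _ (Fact.out : p.Prime).ne_zero) |>.1 h1)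

end chr

section fam

variable {G Ω : Type*} [Group G] [MulAction G Ω] {N : Subgroup G} {F : Type*} [Field F] [Fintype F] {n q : ℕ}
  {U : UEnv G Ω N F n q} {ι : Type*} {x : ι → G} {f : ι → (Fin n → F) → (Fin n → F)} {r : ι → ℕ}

/-- `r i₀` is the characteristic -/
theorem fam_char (hU : UFam U x f r) {i₀ : ι} (h0 : ¬ (r i₀).Coprime q) :
    (r i₀).Prime ∧ CharP F (r i₀) ∧ ∃ k, q = r i₀ ^ k := by
  obtain ⟨p, k, hp, hchar, hk, hk0⟩ := exists_prime_pow U.hF
  have hr := hU.pf.prime i₀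
  have h1 : r i₀ = p := by
    rw [← Nat.prime_dvd_prime_iff_eq hr hp]
    rw [hr.coprime_iff_not_dvd, not_not, hk] at h0
    exact hr.dvd_of_dvd_pow h0
  rw [h1]
  exact ⟨hp, hchar, k, hk⟩

/-- the others have order prime to `q` -/
theorem fam_coprime (hU : UFam U x f r) {i₀ : ι} (h0 : ¬ (r i₀).Coprime q) {j : ι} (hj : j ≠ i₀) : (r j).Coprime q := by
  by_contra hcon
  obtain ⟨hp, h1, k, hk⟩ := fam_char hU h0
  obtain ⟨hp', h1', -⟩ := fam_char hU hcon
  exact hj (hU.pf.inj (CharP.eq F h1' h1))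

/-- `f i₀` is the identity where it is a scalar -/
theorem fam_scal (hU : UFam U x f r) (hl : ∀ i, Lin (f i)) {i₀ : ι} (h0 : ¬ (r i₀).Coprime q) {c : F} {v : Fin n → F}
    (hv : f i₀ v = c • v) : f i₀ v = v := by
  by_cases hv0 : v = 0
  · rw [hv0, Ind.map_zero (hU.lft i₀)]
  obtain ⟨hp, hchar, -⟩ := fam_char hU h0
  have := Fact.mk hp
  obtain ⟨k, hk⟩ := hU.ord i₀
  have h1 := iter_eig (hl i₀) hv (r i₀ ^ k)
  rw [hk] at h1
  have h2 : (c ^ r i₀ ^ k - 1) • v = 0 := by rw [sub_smul, ← h1, one_smul, sub_self]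
  have h3 := sub_eq_zero.1 ((smul_eq_zero.1 h2).resolve_right hv0)
  rw [hv, eq_one_of_pow_char (p := r i₀) h3, one_smul]

/-- `(f i₀)^p = 1` -/
theorem fam_pow (hU : UFam U x f r) (hl : ∀ i, Lin (f i)) {i₀ : ι} (h0 : ¬ (r i₀).Coprime q) (v : Fin n → F) :
    (f i₀)^[r i₀] v = v := by
  by_cases hv0 : v = 0
  · rw [hv0]
    exact Function.iterate_fixed (Ind.map_zero (hU.lft i₀)) _
  obtain ⟨hp, hchar, -⟩ := fam_char hU h0
  have := Fact.mk hp
  obtain ⟨c, hc⟩ := ((hU.lft i₀).pow (r i₀)).eq_one_iff.1 (hU.pf.pow i₀)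
  obtain ⟨k, hk⟩ := hU.ord i₀
  have h1 : ∀ m : ℕ, (f i₀)^[r i₀ * m] v = c ^ m • v := by
    intro m
    induction m with
    | zero => simp
    | succ m ih =>
      rw [Nat.mul_succ, Function.iterate_add_apply, hc, iter_smul (hl i₀), ih, smul_smul, pow_succ']
  have h2 := h1 (r i₀ ^ k)
  have h3 : (f i₀)^[r i₀ * r i₀ ^ k] v = v := by
    rw [Nat.mul_comm, Function.iterate_mul]
    exact Function.iterate_fixed (hk v) _
  rw [h3] at h2
  have h4 : (c ^ r i₀ ^ k - 1) • v = 0 := by rw [sub_smul, ← h2, one_smul, sub_self]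
  have h5 := sub_eq_zero.1 ((smul_eq_zero.1 h4).resolve_right hv0)
  rw [hc, eq_one_of_pow_char (p := r i₀) h5, one_smul]

/-- `(f i₀ - 1)^p = 0` -/
theorem fam_nil (hU : UFam U x f r) (hl : ∀ i, Lin (f i)) {i₀ : ι} (h0 : ¬ (r i₀).Coprime q) :
    (lmap (hU.lft i₀) (hl i₀) - 1) ^ r i₀ = 0 := by
  obtain ⟨hp, hchar, -⟩ := fam_char hU h0
  have := Fact.mk hp
  have hn := U.hn
  have : Nonempty (Fin n) := ⟨⟨0, by omega⟩⟩
  have : Nontrivial (Module.End F (Fin n → F)) := inferInstance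
  have : CharP (Module.End F (Fin n → F)) (r i₀) :=
    charP_of_injective_algebraMap (algebraMap F (Module.End F (Fin n → F))).injective (r i₀)
  rw [sub_pow_char_of_commute (r i₀) (Commute.one_right _), one_pow, sub_eq_zero]
  refine LinearMap.ext fun v => ?_
  rw [lmap_pow, fam_pow hU hl h0]
  rfl

theorem coprime_natCast (hF : Fintype.card F = q ^ 2) {s k : ℕ} (hs : s.Prime) (hsq : s.Coprime q) :
    ((s ^ k : ℕ) : F) ≠ 0 := by
  rw [Nat.cast_pow]
  exact pow_ne_zero _ (UEnv.natCast_ne_zero hF hs hsq)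

/-- **Invariant planes** on which `f i₀` is not the identity -/
theorem fam_two (hU : UFam U x f r) (hl : ∀ i, Lin (f i)) {i₀ : ι} (h0 : ¬ (r i₀).Coprime q)
    {A : Submodule F (Fin n → F)} (hA2 : Module.finrank F A = 2) (hA : ∀ i, Stab (f i) A) {v₀ : Fin n → F}
    (hv₀ : v₀ ∈ A) (hv₁ : f i₀ v₀ ≠ v₀) :
    ∃ e ∈ A, e ≠ 0 ∧ f i₀ e = e ∧ f i₀ v₀ = v₀ + e ∧ hermForm n F q e e = 0 ∧
      (∀ v ∈ A, ∃ c : F, f i₀ v = v + c • e) ∧ (∀ v ∈ A, ∃ a b : F, v = a • v₀ + b • e) ∧
      ∀ j, j ≠ i₀ → ScalOn (f j) A := by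
  classical
  have hF := U.hF
  obtain ⟨hp, hchar, -⟩ := fam_char hU h0
  let D : Module.End F (Fin n → F) := lmap (hU.lft i₀) (hl i₀) - 1
  have hD : ∀ v, D v = f i₀ v - v := fun v => rfl
  have hDA : ∀ v ∈ A, D v ∈ A := fun v hv => A.sub_mem (hA i₀ v hv) hv
  let DA : Module.End F A := D.restrict hDA
  have hDA2 : DA ^ 2 = 0 := by
    have h1 : DA ^ r i₀ = 0 := by
      have h2 : D ^ r i₀ = 0 := fam_nil hU hl h0
      refine LinearMap.ext fun v => Subtype.ext ?_
      have h3 : (((DA ^ r i₀) v : A) : Fin n → F) = (D ^ r i₀) v := by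
        rw [Module.End.pow_restrict]
        rfl
      rw [h3, h2]
      rfl
    have h2 := Module.End.ker_pow_eq_ker_pow_finrank_of_le (f := DA) (m := r i₀) (by rw [hA2]; exact hp.two_le)
    rw [hA2, h1, LinearMap.ker_zero] at h2
    exact LinearMap.ker_eq_top.1 h2.symm
  have hDD : ∀ v ∈ A, D (D v) = 0 := by
    intro v hv
    have h1 := congrArg (fun g : Module.End F A => ((g ⟨v, hv⟩ : A) : Fin n → F)) hDA2
    simpa [pow_two, DA] using h1
  have he0 : D v₀ ≠ 0 := by rw [hD]; exact sub_ne_zero.2 hv₁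
  obtain ⟨e, he⟩ : ∃ e, e = D v₀ := ⟨_, rfl⟩
  rw [← he] at he0
  have heA : e ∈ A := by rw [he]; exact hDA _ hv₀
  have hDe : D e = 0 := by rw [he]; exact hDD _ hv₀
  have hTe : f i₀ e = e := by rw [hD] at hDe; exact sub_eq_zero.1 hDe
  have hTv : f i₀ v₀ = v₀ + e := by rw [he, hD]; abel
  have hli : LinearIndependent F ![v₀, e] := by
    rw [LinearIndependent.pair_iff]
    intro a b hab
    have h1 := congrArg D hab
    rw [map_add, map_smul, map_smul, map_zero, hDe, smul_zero, add_zero, ← he] at h1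
    have h2 := (smul_eq_zero.1 h1).resolve_right he0
    rw [h2, zero_smul, zero_add] at hab
    exact ⟨h2, (smul_eq_zero.1 hab).resolve_right he0⟩
  have hspan : Submodule.span F (Set.range ![v₀, e]) = A := by
    apply Submodule.eq_of_le_of_finrank_eq
    · rw [Submodule.span_le]
      rintro _ ⟨i, rfl⟩
      fin_cases i
      · exact hv₀
      · exact heA
    · rw [finrank_span_eq_card hli, hA2]
      rfl
  have hAv : ∀ v ∈ A, ∃ a b : F, v = a • v₀ + b • e := by
    intro v hv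
    rw [← hspan, Matrix.range_cons, Matrix.range_cons, Matrix.range_empty, Set.union_empty] at hv
    rw [Set.singleton_union, Submodule.mem_span_pair] at hv
    obtain ⟨a, b, h⟩ := hv
    exact ⟨a, b, h.symm⟩
  refine ⟨e, heA, he0, hTe, hTv, ?_, ?_, hAv, ?_⟩
  · have h1 := lin_herm (hU.lft i₀) (hl i₀) v₀ e
    rw [hTe, hTv, herm_add_left] at h1
    exact (add_eq_left.1 h1)
  · intro v hv
    obtain ⟨a, b, rfl⟩ := hAv v hv
    refine ⟨a, ?_⟩
    rw [Ind.map_add (hU.lft i₀), hl i₀, hl i₀, hTe, hTv, smul_add]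
    abel
  · intro j hj
    obtain ⟨a, b, hab⟩ := hAv _ (hA j v₀ hv₀)
    have h1 : f j e = a • e := by
      have h2 := hU.comm i₀ j v₀
      rw [hab, hTv, Ind.map_add (hU.lft i₀), hl i₀, hl i₀, hTe, hTv, Ind.map_add (hU.lft j), hab, smul_add] at h2
      have h3 : f j e = (a • v₀ + a • e + b • e) - (a • v₀ + b • e) := by rw [h2]; abel
      rw [h3]
      abel
    obtain ⟨k, hk⟩ := hU.ord j
    have h2 : ∀ m : ℕ, (f j)^[m] v₀ = a ^ m • v₀ + (m * a ^ (m - 1) * b) • e := by
      intro m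
      induction m with
      | zero => simp
      | succ m ih =>
        rw [Function.iterate_succ_apply', ih, Ind.map_add (hU.lft j), hl j, hl j, hab, h1, smul_add, smul_smul,
          smul_smul, smul_smul, add_assoc, ← add_smul, pow_succ]
        congr 2
        rcases m with _ | m
        · simp
        · rw [Nat.add_sub_cancel, Nat.add_sub_cancel, pow_succ, Nat.cast_add (m + 1) 1, Nat.cast_one]
          ring
    have h3 := h2 (r j ^ k)
    rw [hk] at h3
    have h4 : (a ^ r j ^ k - 1) • v₀ + (((r j ^ k : ℕ) : F) * a ^ (r j ^ k - 1) * b) • e = 0 := by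
      rw [sub_smul, one_smul, sub_add_eq_add_sub, ← h3, sub_self]
    rw [LinearIndependent.pair_iff] at hli
    obtain ⟨h5, h6⟩ := hli _ _ h4
    have ha : a ≠ 0 := by
      rintro rfl
      rw [zero_pow (pow_ne_zero _ (hU.pf.prime j).ne_zero), zero_sub] at h5
      exact one_ne_zero (neg_eq_zero.1 h5)
    have hb : b = 0 := by
      rcases mul_eq_zero.1 h6 with h7 | h7
      · rcases mul_eq_zero.1 h7 with h8 | h8
        · exact absurd h8 (coprime_natCast hF (hU.pf.prime j) (fam_coprime hU h0 hj))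
        · exact absurd h8 (pow_ne_zero _ ha)
      · exact h7
    refine ⟨a, fun v hv => ?_⟩
    obtain ⟨c, d, rfl⟩ := hAv v hv
    rw [Ind.map_add (hU.lft j), hl j, hl j, hab, h1, hb, zero_smul, add_zero, smul_add, smul_comm a c, smul_comm a d]

end fam

end Cfsg.Agent.H993.RC
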