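import Cfsg.Agent.H993.RC.TwoD
import Cfsg.Agent.H398.RC.FieldSU
import Cfsg.Agent.H452.RC.SUTwo

/-!
# S3510, box E10, case B: the subgroup `SU_2(q^l)` of `SU_{2l}(q)` (helper993)
-/

set_option autoImplicit false
set_option linter.unusedSectionVars false

namespace Cfsg.Agent.H993.RC

open Matrix Module Cfsg Cfsg.Agent.LieClassical.HermBasic Cfsg.Agent.LieClassical.HermSiegel
  Cfsg.Agent.ClassicalGeometry.PSUAutBasic Cfsg.Agent.ClassicalGeometry.PSUAutCount Cfsg.Agent.H380.RC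
  Cfsg.Agent.H398.RC

section fld

variable {F : Type} [Field F] [Fintype F] {n q : ℕ} {K : Type} [Field K] [Fintype K] [Algebra F K]
  [Module K (Fin n → F)] [IsScalarTower F K (Fin n → F)] {l : ℕ}

/-- the structure of `V` over `K`, `dim_K V = 2` -/
structure K2 (q l : ℕ) (ψ : (Fin 2 → K) ≃ₗ[K] (Fin n → F)) : Prop where
  hF : Fintype.card F = q ^ 2
  hK : Fintype.card K = (q ^ l) ^ 2
  hQ : 4 ≤ q ^ l
  tr : ∀ a b : Fin 2 → K, hermForm n F q (ψ a) (ψ b) = Algebra.trace F K (hermForm 2 K (q ^ l) a b)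

variable {ψ : (Fin 2 → K) ≃ₗ[K] (Fin n → F)} (h : K2 q l ψ)
include h

theorem K2.det (s : SU 2 K (q ^ l)) : LinearMap.det (toEnd l q ψ s) = 1 := by
  let D : SU 2 K (q ^ l) →* Fˣ := MonoidHom.toHomUnits (LinearMap.det.comp (toEnd l q ψ))
  have h1 : s ∈ commutator (SU 2 K (q ^ l)) := by
    rw [Cfsg.Agent.H452.RC.comm_two h.hK h.hQ]
    trivial
  have h2 : s ∈ D.ker := Abelianization.commutator_subset_ker D h1
  have h3 := congrArg Units.val (MonoidHom.mem_ker.1 h2)
  exact h3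

theorem K2.herm (s : SU 2 K (q ^ l)) (v w : Fin n → F) :
    hermForm n F q (ψ (act s (ψ.symm v))) (ψ (act s (ψ.symm w))) = hermForm n F q v w := by
  rw [h.tr, herm_act, ← h.tr, LinearEquiv.apply_symm_apply, LinearEquiv.apply_symm_apply]

/-- the embedding `SU_2(K) → SU_n(F)` -/
noncomputable def K2.phi : SU 2 K (q ^ l) →* SU n F q where
  toFun s := mkSU (LinearMap.toMatrix' (toEnd l q ψ s)) (by rw [LinearMap.det_toMatrix', h.det]) (by
    intro v w
    rw [LinearMap.toMatrix'_mulVec, LinearMap.toMatrix'_mulVec, toEnd_apply, toEnd_apply, h.herm])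
  map_one' := by
    apply ext_act
    intro v
    change LinearMap.toMatrix' (toEnd l q ψ 1) *ᵥ v = _
    rw [LinearMap.toMatrix'_mulVec, map_one, act_one]
    rfl
  map_mul' s t := by
    apply ext_act
    intro v
    rw [act_mul]
    change LinearMap.toMatrix' (toEnd l q ψ (s * t)) *ᵥ v =
      LinearMap.toMatrix' (toEnd l q ψ s) *ᵥ (LinearMap.toMatrix' (toEnd l q ψ t) *ᵥ v)
    rw [LinearMap.toMatrix'_mulVec, LinearMap.toMatrix'_mulVec, LinearMap.toMatrix'_mulVec, map_mul]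
    rfl

theorem K2.act_phi (s : SU 2 K (q ^ l)) (v : Fin n → F) : act (h.phi s) v = ψ (act s (ψ.symm v)) := by
  change LinearMap.toMatrix' (toEnd l q ψ s) *ᵥ v = _
  rw [LinearMap.toMatrix'_mulVec, toEnd_apply]

theorem K2.act_phi' (s : SU 2 K (q ^ l)) (a : Fin 2 → K) : act (h.phi s) (ψ a) = ψ (act s a) := by
  rw [h.act_phi, LinearEquiv.symm_apply_apply]

theorem K2.act_phi_smul (s : SU 2 K (q ^ l)) (k : K) (v : Fin n → F) : act (h.phi s) (k • v) = k • act (h.phi s) v := by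
  rw [h.act_phi, h.act_phi, map_smul, act_smul, map_smul]

/-- a `K`-linear isometry for `h` is an isometry for the form over `K` -/
theorem K2.form {f : (Fin n → F) → (Fin n → F)}
    (hK : ∀ (a : K) (v : Fin n → F), f (a • v) = a • f v)
    (hiso : ∀ v w, hermForm n F q (f v) (f w) = hermForm n F q v w) (a b : Fin 2 → K) :
    hermForm 2 K (q ^ l) (ψ.symm (f (ψ a))) (ψ.symm (f (ψ b))) = hermForm 2 K (q ^ l) a b := by
  apply trace_unique (F := F)
  intro c
  have e3 : ∀ x y : Fin 2 → K, Algebra.trace F K (hermForm 2 K (q ^ l) x y * c) = hermForm n F q (c • ψ x) (ψ y) := by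
    intro x y
    rw [mul_comm, ← herm_smul_left, ← h.tr, map_smul]
  rw [e3, e3, LinearEquiv.apply_symm_apply, LinearEquiv.apply_symm_apply, ← hK, hiso]

/-- a `K`-linear isometry is in `GU_2(K)` -/
theorem K2.exists_gu {f f' : (Fin n → F) → (Fin n → F)} (hadd : ∀ v w, f (v + w) = f v + f w)
    (hK : ∀ (a : K) (v : Fin n → F), f (a • v) = a • f v)
    (hiso : ∀ v w, hermForm n F q (f v) (f w) = hermForm n F q v w)
    (h1 : ∀ v, f (f' v) = v) (h2 : ∀ v, f' (f v) = v) :
    ∃ A : Cfsg.GU 2 K (q ^ l), ∀ a : Fin 2 → K, ψ (gm A *ᵥ a) = f (ψ a) := by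
  let g : (Fin 2 → K) →ₗ[K] (Fin 2 → K) :=
    { toFun := fun a => ψ.symm (f (ψ a))
      map_add' := fun a b => by rw [map_add, hadd, map_add]
      map_smul' := fun c a => by rw [map_smul, hK, map_smul, RingHom.id_apply] }
  have hadd' : ∀ v w, f' (v + w) = f' v + f' w := by
    intro v w
    conv_lhs => rw [← h1 v, ← h1 w, ← hadd, h2]
  have hK' : ∀ (a : K) (v : Fin n → F), f' (a • v) = a • f' v := by
    intro a v
    conv_lhs => rw [← h1 v, ← hK, h2]
  let g' : (Fin 2 → K) →ₗ[K] (Fin 2 → K) :=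
    { toFun := fun a => ψ.symm (f' (ψ a))
      map_add' := fun a b => by rw [map_add, hadd', map_add]
      map_smul' := fun c a => by rw [map_smul, hK', map_smul, RingHom.id_apply] }
  have hg : ∀ a, g a = ψ.symm (f (ψ a)) := fun _ => rfl
  have hg' : ∀ a, g' a = ψ.symm (f' (ψ a)) := fun _ => rfl
  have e1 : g.comp g' = LinearMap.id := by
    apply LinearMap.ext
    intro a
    rw [LinearMap.comp_apply, hg, hg', LinearEquiv.apply_symm_apply, h1, LinearEquiv.symm_apply_apply]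
    rfl
  have e2 : g'.comp g = LinearMap.id := by
    apply LinearMap.ext
    intro a
    rw [LinearMap.comp_apply, hg, hg', LinearEquiv.apply_symm_apply, h2, LinearEquiv.symm_apply_apply]
    rfl
  let A0 : GL (Fin 2) K := ⟨LinearMap.toMatrix' g, LinearMap.toMatrix' g', by
    rw [← LinearMap.toMatrix'_comp, e1, LinearMap.toMatrix'_id], by
    rw [← LinearMap.toMatrix'_comp, e2, LinearMap.toMatrix'_id]⟩
  have hA0 : ∀ a, ((A0 : GL (Fin 2) K) : Matrix (Fin 2) (Fin 2) K) *ᵥ a = g a := fun a => by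
    change LinearMap.toMatrix' g *ᵥ a = _
    rw [LinearMap.toMatrix'_mulVec]
  refine ⟨⟨A0, ?_⟩, fun a => ?_⟩
  · rw [mem_GU_iff]
    intro u v
    rw [hA0, hA0, hg, hg, h.form hK hiso]
  · change ψ ((A0 : Matrix (Fin 2) (Fin 2) K) *ᵥ a) = _
    rw [hA0, hg, LinearEquiv.apply_symm_apply]

/-- the conjugates of the image of `SU_2(K)` -/
theorem K2.conj {f : (Fin n → F) → (Fin n → F)} {A : Cfsg.GU 2 K (q ^ l)}
    (hA : ∀ a : Fin 2 → K, ψ (gm A *ᵥ a) = f (ψ a)) (s : SU 2 K (q ^ l)) (v : Fin n → F) :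
    f (act (h.phi s) v) = act (h.phi (semiConj A (RingEquiv.refl K) s)) (f v) := by
  obtain ⟨a, rfl⟩ := ψ.surjective v
  rw [h.act_phi', ← hA, ← hA, h.act_phi']
  congr 1
  exact (act_semiConj A (RingEquiv.refl K) s a).symm

variable {G Ω : Type} [Group G] [MulAction G Ω] {N : Subgroup G} (U : UEnv G Ω N F n q)

theorem K2.ker {s : SU 2 K (q ^ l)} (hs : U.el (h.phi s) = 1) : ∃ c : F, ∀ a : Fin 2 → K, act s a = c • a := by
  rw [U.el_eq_one] at hs
  obtain ⟨c, -, -, hc⟩ := exists_scalar_of_mem_center h.hF U.hn hs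
  refine ⟨c, fun a => ?_⟩
  apply ψ.injective
  rw [← h.act_phi', hc, ← algebraMap_smul K c (ψ a), ← algebraMap_smul K c a, map_smul]

end fld

end Cfsg.Agent.H993.RC
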