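import Cfsg.Agent.H993.RC.TwoTor

/-!
# S3510, box E10, case B: `dim_K V = 2` (helper993)
-/

set_option autoImplicit false
set_option linter.unusedSectionVars false

namespace Cfsg.Agent.H993.RC

open Matrix Module Cfsg Cfsg.Agent.LieClassical.HermBasic Cfsg.Agent.LieClassical.HermSiegel
  Cfsg.Agent.ClassicalGeometry.PSUAutBasic Cfsg.Agent.ClassicalGeometry.PSUAutCount Cfsg.Agent.H380.RC
  Cfsg.Agent.H398.RC

/-- an odd prime divisor of `q ^ l - 1` -/
theorem exists_odd_prime {q l : ℕ} (hq : 2 ≤ q) (hl : Odd l) (hl3 : 3 ≤ l) :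
    ∃ s, s.Prime ∧ s ≠ 2 ∧ s ∣ q ^ l - 1 := by
  classical
  have h1 : (∑ i ∈ Finset.range l, q ^ i) * (q - 1) = q ^ l - 1 := by
    zify [Nat.one_le_pow l q (by omega), (by omega : 1 ≤ q)]
    exact geom_sum_mul (q : ℤ) l
  have h2 : Odd (∑ i ∈ Finset.range l, q ^ i) := by
    rw [Finset.odd_sum_iff_odd_card_odd]
    rcases Nat.even_or_odd q with h | h
    · have h3 : (Finset.range l).filter (fun i => Odd (q ^ i)) = {0} := by
        ext i
        rw [Finset.mem_filter, Finset.mem_range, Finset.mem_singleton]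
        constructor
        · rintro ⟨-, hi⟩
          by_contra h0
          exact (Nat.not_even_iff_odd.2 hi) (h.pow_of_ne_zero h0)
        · rintro rfl
          exact ⟨by omega, by simp⟩
      rw [h3]
      simp
    · have h3 : (Finset.range l).filter (fun i => Odd (q ^ i)) = Finset.range l := by
        ext i
        rw [Finset.mem_filter]
        exact ⟨fun h => h.1, fun hi => ⟨hi, h.pow⟩⟩
      rw [h3, Finset.card_range]
      exact hl
  have h3 : (∑ i ∈ Finset.range l, q ^ i) ≠ 1 := by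
    obtain ⟨m, rfl⟩ : ∃ m, l = m + 2 := ⟨l - 2, by omega⟩
    rw [Finset.sum_range_succ, Finset.sum_range_succ', pow_zero]
    have : 0 < q ^ (m + 1) := pow_pos (by omega) _
    omega
  refine ⟨(∑ i ∈ Finset.range l, q ^ i).minFac, Nat.minFac_prime h3, ?_, ?_⟩
  · intro h4
    rw [Nat.minFac_eq_two_iff] at h4
    exact (Nat.not_even_iff_odd.2 h2) (even_iff_two_dvd.2 h4)
  · exact (Nat.minFac_dvd _).trans ⟨_, h1.symm⟩

section fld

variable {F : Type} [Field F] [Fintype F] {n q : ℕ} {K : Type} [Field K] [Fintype K] [Algebra F K]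
  [Module K (Fin n → F)] [IsScalarTower F K (Fin n → F)] {l : ℕ}
  {ψ : (Fin 2 → K) ≃ₗ[K] (Fin n → F)} (h : K2 q l ψ)
  {G Ω : Type} [Group G] [Finite G] [Finite Ω] [Nonempty Ω] [MulAction G Ω] {N : Subgroup G} {U : UEnv G Ω N F n q}
  {ι : Type} [Finite ι] {x : ι → G} {f : ι → (Fin n → F) → (Fin n → F)} {r : ι → ℕ}

omit h [Finite G] [Finite Ω] [Nonempty Ω] [Finite ι] in
/-- `K`-eigenvalues of `f i₀` are trivial -/
theorem K2.eig (hU : UFam U x f r) {i₀ : ι} (h0 : ¬ (r i₀).Coprime q)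
    (hcomm : ∀ (i : ι) (a : K) (v : Fin n → F), f i (a • v) = a • f i v) {a : K} {v : Fin n → F} (hv : f i₀ v = a • v) :
    f i₀ v = v := by
  by_cases hv0 : v = 0
  · rw [hv0, Ind.map_zero (hU.lft i₀)]
  obtain ⟨hp, hchar, -⟩ := fam_char hU h0
  have := Fact.mk hp
  have : CharP K (r i₀) := charP_of_injective_algebraMap (algebraMap F K).injective (r i₀)
  obtain ⟨k, hk⟩ := hU.ord i₀
  have h1 : ∀ m : ℕ, (f i₀)^[m] v = a ^ m • v := by
    intro m
    induction m with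
    | zero => simp
    | succ m ih => rw [Function.iterate_succ_apply', ih, hcomm, hv, smul_smul, pow_succ]
  have h2 := h1 (r i₀ ^ k)
  rw [hk] at h2
  have h3 : (a ^ r i₀ ^ k - 1) • v = 0 := by rw [sub_smul, ← h2, one_smul, sub_self]
  have h4 := sub_eq_zero.1 ((smul_eq_zero.1 h3).resolve_right hv0)
  rw [hv, eq_one_of_pow_char (p := r i₀) h4, one_smul]

include h

omit [Finite G] [Finite Ω] [Nonempty Ω] [Finite ι] in
/-- an element commuting with the image of `SU_2(K)` fixes singular points -/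
theorem K2.fix_sing {y : G} {g : (Fin n → F) → (Fin n → F)} (hl : U.Lft y g) (hlin : Lin g)
    (hcomm : ∀ (a : K) (v : Fin n → F), g (a • v) = a • g v)
    (hy : ∀ s, y * U.el (h.phi s) = U.el (h.phi s) * y) {e e' : Fin 2 → K} (h1 : hermForm 2 K (q ^ l) e e = 0)
    (h2 : hermForm 2 K (q ^ l) e' e' = 0) (h3 : hermForm 2 K (q ^ l) e e' = 1) : ∃ a : K, g (ψ e) = a • ψ e := by
  have hK := h.hK
  have hform := h.form hcomm (lin_herm hl hlin)
  obtain ⟨μ, hμ0, hμ⟩ := exists_trace_zero_ne hK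
  have h1' : hermForm 2 K (q ^ l) (ψ.symm (g (ψ e))) (ψ.symm (g (ψ e))) = 0 := by rw [hform, h1]
  have h4 : y * U.el (h.phi (transv hK e h1 μ hμ)) * y⁻¹ = U.el (h.phi (transv hK _ h1' μ hμ)) := by
    apply hl.conj_el
    intro v
    obtain ⟨a, rfl⟩ := ψ.surjective v
    rw [h.act_phi', h.act_phi, act_transv, act_transv, hform, map_add, map_smul, map_add, map_smul,
      Ind.map_add hl, hcomm, LinearEquiv.apply_symm_apply, LinearEquiv.apply_symm_apply]
  rw [hy, mul_inv_cancel_right] at h4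
  obtain ⟨c, hc⟩ := h.ker U (s := (transv hK e h1 μ hμ)⁻¹ * transv hK _ h1' μ hμ) (by
    rw [map_mul, map_inv, map_mul, map_inv, ← h4, inv_mul_cancel])
  have h5 := hc e
  rw [act_mul] at h5
  have h6 := congrArg (act (transv hK e h1 μ hμ)) h5
  rw [act_act_inv, ← algebraMap_smul K c e, act_smul, act_transv, act_transv, h1, mul_zero, zero_smul, add_zero] at h6
  obtain ⟨a, b, hab⟩ := hyp_coord hK h1 h2 h3 (ψ.symm (g (ψ e)))
  have h7 : hermForm 2 K (q ^ l) e (ψ.symm (g (ψ e))) = b ^ q ^ l := by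
    rw [hab, herm_add_right hK, herm_smul_right, herm_smul_right, h1, h3, mul_zero, zero_add, mul_one]
  have hb : b = 0 := by
    by_contra hb
    rw [h7, hab, smul_add, smul_smul, smul_smul, ← sub_eq_zero] at h6
    have h8 : (1 + μ * b ^ q ^ l * a - algebraMap F K c) • e + (μ * b ^ q ^ l * b) • e' = 0 := by
      rw [← h6]
      module
    obtain ⟨-, h9⟩ := hyp_indep hK h1 h2 h3 h8
    exact mul_ne_zero (mul_ne_zero hμ0 (pow_ne_zero _ hb)) hb h9
  refine ⟨a, ?_⟩
  rw [hb, zero_smul, add_zero] at hab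
  rw [← map_smul, ← hab, LinearEquiv.apply_symm_apply]

/-- the M-rule for `M = SU_2(K)` -/
theorem K2.mrule (hU : UFam U x f r) (hcov : H106.RC.Cov Ω x) (hl : ∀ i, Lin (f i)) {i₀ : ι}
    (h0 : ¬ (r i₀).Coprime q) (hcomm : ∀ (i : ι) (a : K) (v : Fin n → F), f i (a • v) = a • f i v)
    (hS : ∀ j, j ≠ i₀ → ∃ a : K, ∀ v, f j v = a • v) (ω : Ω) :
    (∀ s, U.el (h.phi s) • ω = ω) ∨ ∃ j, j ≠ i₀ ∧ x j • ω = ω := by
  have hK := h.hK
  have key := mrule_hom_pf (Cfsg.Agent.H452.RC.simple_two h.hK h.hQ) (Cfsg.Agent.H452.RC.nc_two h.hK h.hQ)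
    (U.el.comp h.phi) (by rw [← commutator_def]; exact Cfsg.Agent.H452.RC.comm_two h.hK h.hQ)
    (pr 2 K (q ^ l)) pr_surjective (by
      intro s hs
      obtain ⟨c, hc⟩ := h.ker U (s := s) (MonoidHom.mem_ker.1 hs)
      rw [MonoidHom.mem_ker, pr_eq_one_iff]
      apply mem_center_of_act (c := algebraMap F K c)
      intro a
      rw [hc, algebraMap_smul]) (by
      intro s hs
      exact pr_eq_one_iff.1 (MonoidHom.mem_ker.1 hs)) hU.pf (by
      intro i s
      obtain ⟨g, -, hg1, hg2⟩ := (hU.lft i).inv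
      obtain ⟨A, hA⟩ := h.exists_gu (Ind.map_add (hU.lft i)) (hcomm i) (lin_herm (hU.lft i) (hl i)) hg1 hg2
      exact ⟨_, (hU.lft i).conj_el (h.conj hA s)⟩) (Or.inr ⟨i₀, by
      intro j hj s
      obtain ⟨a, ha⟩ := hS j hj
      have h1 := (hU.lft j).conj_el (s := h.phi s) (s' := h.phi s) (fun v => by rw [ha, ha, h.act_phi_smul])
      change x j * U.el (h.phi s) = U.el (h.phi s) * x j
      exact mul_inv_eq_iff_eq_mul.1 h1⟩) hcov ω
  rcases key with h1 | ⟨j, hj, hjω⟩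
  · exact Or.inl h1
  · right
    refine ⟨j, ?_, hjω⟩
    rintro rfl
    apply hU.pf.ne j
    obtain ⟨e, e', h1, h2, h3⟩ := exists_hyp hK
    obtain ⟨a, ha⟩ := h.fix_sing (hU.lft j) (hl j) (hcomm j) hj h1 h2 h3
    obtain ⟨a', ha'⟩ := h.fix_sing (hU.lft j) (hl j) (hcomm j) hj h2 h1 (hyp_swap hK h3)
    have h4 := K2.eig hU h0 hcomm ha
    have h5 := K2.eig hU h0 hcomm ha'
    rw [(hU.lft j).eq_one_iff]
    refine ⟨1, fun v => ?_⟩
    obtain ⟨w, rfl⟩ := ψ.surjective v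
    obtain ⟨c, d, rfl⟩ := hyp_coord hK h1 h2 h3 w
    rw [map_add, map_smul, map_smul, Ind.map_add (hU.lft j), hcomm, hcomm, h4, h5, one_smul]

end fld

end Cfsg.Agent.H993.RC
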