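import Cfsg.Agent.H993.RC.TwoM

/-!
# S3510, box E10, case B: `dim_K V = 2`, the new family (helper993)
-/

set_option autoImplicit false
set_option linter.unusedSectionVars false

namespace Cfsg.Agent.H993.RC

open Matrix Module Cfsg Cfsg.Agent.LieClassical.HermBasic Cfsg.Agent.LieClassical.HermSiegel
  Cfsg.Agent.ClassicalGeometry.PSUAutBasic Cfsg.Agent.ClassicalGeometry.PSUAutCount Cfsg.Agent.H380.RC
  Cfsg.Agent.H398.RC

section fld

variable {F : Type} [Field F] [Fintype F] {n q : ℕ} {K : Type} [Field K] [Fintype K] [Algebra F K]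
  [Module K (Fin n → F)] [IsScalarTower F K (Fin n → F)] {l : ℕ}
  {ψ : (Fin 2 → K) ≃ₗ[K] (Fin n → F)} (h : K2 q l ψ)
  {G Ω : Type} [Group G] [Finite G] [Finite Ω] [Nonempty Ω] [MulAction G Ω] {N : Subgroup G} {U : UEnv G Ω N F n q}
  {ι : Type} [Finite ι] {x : ι → G} {f : ι → (Fin n → F) → (Fin n → F)} {r : ι → ℕ}

/-- iterates of `act` -/
theorem iterate_act' {m Q : ℕ} {L : Type*} [Field L] (g : SU m L Q) (k : ℕ) (v : Fin m → L) :
    (act g)^[k] v = act (g ^ k) v := by
  induction k generalizing v with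
  | zero => rw [pow_zero, act_one]; rfl
  | succ k ih => rw [Function.iterate_succ_apply, ih, pow_succ, act_mul]

include h

/-- scalars of `K` which are isometries -/
theorem K2.norm_one {g : (Fin n → F) → (Fin n → F)} {a : K} (hg : ∀ v, g v = a • v)
    (hiso : ∀ v w, hermForm n F q (g v) (g w) = hermForm n F q v w) : a * a ^ q ^ l = 1 := by
  have hK := h.hK
  obtain ⟨e, e', -, -, h3⟩ := exists_hyp hK
  have h4 := h.form (f := g) (fun b v => by rw [hg, hg, smul_comm]) hiso e e'
  rwa [hg, hg, map_smul, map_smul, LinearEquiv.symm_apply_apply, LinearEquiv.symm_apply_apply, herm_smul_left,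
    herm_smul_right, h3, mul_one] at h4

/-- **`dim_K V = 2`** -/
theorem K2.main (hD : DStmt) (hsm : SmallStmt) (hU : UFam U x f r) (hcov : H106.RC.Cov Ω x) (hl : ∀ i, Lin (f i))
    {i₀ : ι} (h0 : ¬ (r i₀).Coprime q) (hcomm : ∀ (i : ι) (a : K) (v : Fin n → F), f i (a • v) = a • f i v)
    (hS : ∀ j, j ≠ i₀ → ∃ a : K, ∀ v, f j v = a • v) (hodd : Odd l) (hl3 : 3 ≤ l) (hn : n = 2 * l)
    (hIH : H106.RC.IH (Nat.card (PSU n F q))) : False := by
  classical
  have hK := h.hK
  have hq2 := two_le h.hF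
  obtain ⟨e, e', h1, h2, h3⟩ := exists_hyp hK
  obtain ⟨s, hs, hs2, hsQ⟩ := exists_odd_prime hq2 hodd hl3
  have hQ1 : 1 ≤ q ^ l := Nat.one_le_pow _ _ (by omega)
  -- an element of order `s`
  obtain ⟨b, hb1, hbs⟩ : ∃ b : K, b ≠ 1 ∧ b ^ s = 1 := by
    have := Fact.mk hs
    have h4 : s ∣ Nat.card Kˣ := by
      rw [card_units_eq hK]
      exact hsQ.mul_left _
    obtain ⟨b, hb⟩ := exists_prime_orderOf_dvd_card' s h4
    refine ⟨b, ?_, ?_⟩
    · intro h5
      have h6 : b = 1 := Units.ext h5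
      rw [h6, orderOf_one] at hb
      exact hs.one_lt.ne hb
    · rw [← Units.val_pow_eq_pow_val, ← hb, pow_orderOf_eq_one, Units.val_one]
  have hb0 : b ≠ 0 := by
    rintro rfl
    rw [zero_pow hs.ne_zero] at hbs
    exact zero_ne_one hbs
  have hbQ : b ^ q ^ l = b := by
    obtain ⟨c, hc⟩ := hsQ
    have h4 : q ^ l = s * c + 1 := by omega
    rw [h4, pow_succ, pow_mul, hbs, one_pow, one_mul]
  obtain ⟨y, hy1, hy2⟩ := exists_tor hK h1 h2 h3 hbQ hb0
  have hyk1 : ∀ k, act (y ^ k) e = b ^ k • e := by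
    intro k
    induction k with
    | zero => rw [pow_zero, act_one, pow_zero, one_smul]
    | succ k ih => rw [pow_succ, act_mul, hy1, act_smul, ih, smul_smul, pow_succ']
  have hyk2 : ∀ k, act (y ^ k) e' = b⁻¹ ^ k • e' := by
    intro k
    induction k with
    | zero => rw [pow_zero, act_one, pow_zero, one_smul]
    | succ k ih => rw [pow_succ, act_mul, hy2, act_smul, ih, smul_smul, pow_succ']
  have hys : y ^ s = 1 := by
    apply ext_act
    intro v
    obtain ⟨a, c, rfl⟩ := hyp_coord hK h1 h2 h3 v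
    rw [act_add, act_smul, act_smul, hyk1, hyk2, hbs, inv_pow, hbs, inv_one, one_smul, one_smul, act_one]
  have hyne : U.el (h.phi y) ≠ 1 := by
    intro h4
    obtain ⟨c, hc⟩ := h.ker U (s := y) h4
    have h5 := hc e
    have h6 := hc e'
    have he0 : e ≠ 0 := by
      rintro rfl
      rw [herm_zero_left] at h3
      exact zero_ne_one h3
    have he0' : e' ≠ 0 := by
      rintro rfl
      rw [herm_zero_right hK] at h3
      exact zero_ne_one h3
    rw [hy1, ← algebraMap_smul K c e, ← sub_eq_zero, ← sub_smul] at h5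
    rw [hy2, ← algebraMap_smul K c e', ← sub_eq_zero, ← sub_smul] at h6
    have h7 := sub_eq_zero.1 ((smul_eq_zero.1 h5).resolve_right he0)
    have h8 := sub_eq_zero.1 ((smul_eq_zero.1 h6).resolve_right he0')
    have h9 : b ^ 2 = 1 := by rw [pow_two]; nth_rewrite 2 [h7]; rw [← h8, mul_inv_cancel₀ hb0]
    apply hb1
    obtain ⟨m, hm⟩ : Odd s := hs.odd_of_ne_two hs2
    rw [hm, pow_succ, pow_mul, h9, one_pow, one_mul] at hbs
    exact hbs
  -- the new family
  have hxcomm : ∀ j, j ≠ i₀ → U.el (h.phi y) * x j = x j * U.el (h.phi y) := by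
    intro j hj
    obtain ⟨a, ha⟩ := hS j hj
    have h1 := (hU.lft j).conj_el (s := h.phi y) (s' := h.phi y) (fun v => by rw [ha, ha, h.act_phi_smul])
    exact (mul_inv_eq_iff_eq_mul.1 h1).symm
  let x' : ι → G := Function.update x i₀ (U.el (h.phi y))
  let f' : ι → (Fin n → F) → (Fin n → F) := Function.update f i₀ (act (h.phi y))
  let r' : ι → ℕ := Function.update r i₀ s
  have hx0 : x' i₀ = U.el (h.phi y) := Function.update_self ..
  have hf0 : f' i₀ = act (h.phi y) := Function.update_self ..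
  have hr0 : r' i₀ = s := Function.update_self ..
  have hxj : ∀ j, j ≠ i₀ → x' j = x j := fun j hj => Function.update_of_ne hj ..
  have hfj : ∀ j, j ≠ i₀ → f' j = f j := fun j hj => Function.update_of_ne hj ..
  have hrj : ∀ j, j ≠ i₀ → r' j = r j := fun j hj => Function.update_of_ne hj ..
  -- `s` is different from the other primes
  have hsr : ∀ j, j ≠ i₀ → r j ≠ s := by
    intro j hj hjs
    apply hU.pf.ne j
    rw [(hU.lft j).eq_one_iff]
    obtain ⟨a, ha⟩ := hS j hj
    have h4 := h.norm_one ha (lin_herm (hU.lft j) (hl j))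
    obtain ⟨k, hk⟩ := hU.ord j
    have h5 : a ^ r j ^ k = 1 := by
      have h6 : ∀ m : ℕ, ∀ v, (f j)^[m] v = a ^ m • v := by
        intro m
        induction m with
        | zero => intro v; simp
        | succ m ih => intro v; rw [Function.iterate_succ_apply, ha, ih, smul_smul, pow_succ]
      have h7 := h6 (r j ^ k) (ψ e)
      rw [hk, ← sub_eq_zero] at h7
      have h8 : (1 - a ^ r j ^ k) • ψ e = 0 := by rw [sub_smul, one_smul]; exact h7
      have he0 : ψ e ≠ 0 := by
        rw [map_ne_zero_iff _ ψ.injective]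
        rintro rfl
        rw [herm_zero_left] at h3
        exact zero_ne_one h3
      exact (sub_eq_zero.1 ((smul_eq_zero.1 h8).resolve_right he0)).symm
    rw [← pow_succ'] at h4
    have h6 : Nat.Coprime (r j ^ k) (q ^ l + 1) := by
      apply Nat.Coprime.pow_left
      rw [hjs, hs.coprime_iff_not_dvd]
      intro h7
      apply hs2
      have h8 : s ∣ 2 := by
        have h9 := Nat.dvd_sub h7 hsQ
        rwa [show q ^ l + 1 - (q ^ l - 1) = 2 by omega] at h9
      exact (Nat.prime_dvd_prime_iff_eq hs Nat.prime_two).1 h8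
    have h7 : a = 1 := by
      rw [← orderOf_eq_one_iff, ← Nat.dvd_one, ← h6.gcd_eq_one]
      exact Nat.dvd_gcd (orderOf_dvd_of_pow_eq_one h5) (orderOf_dvd_of_pow_eq_one h4)
    exact ⟨1, fun v => by rw [ha, h7, one_smul, one_smul]⟩
  have hU' : UFam U x' f' r' := by
    refine ⟨⟨?_, ?_, ?_, ?_, ?_⟩, ?_, ?_, ?_⟩
    · intro i
      by_cases hi : i = i₀
      · rw [hi, hr0]; exact hs
      · rw [hrj i hi]; exact hU.pf.prime i
    · intro i j hij
      by_cases hi : i = i₀ <;> by_cases hj : j = i₀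
      · rw [hi, hj]
      · rw [hi, hr0, hrj j hj] at hij
        exact absurd hij.symm (hsr j hj)
      · rw [hj, hr0, hrj i hi] at hij
        exact absurd hij (hsr i hi)
      · rw [hrj i hi, hrj j hj] at hij
        exact hU.pf.inj hij
    · intro i
      by_cases hi : i = i₀
      · rw [hi, hx0, hr0, ← map_pow, ← map_pow, hys, map_one, map_one]
      · rw [hxj i hi, hrj i hi]; exact hU.pf.pow i
    · intro i
      by_cases hi : i = i₀
      · rw [hi, hx0]; exact hyne
      · rw [hxj i hi]; exact hU.pf.ne i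
    · intro i j
      by_cases hi : i = i₀ <;> by_cases hj : j = i₀
      · rw [hi, hj]
      · rw [hi, hx0, hxj j hj]; exact hxcomm j hj
      · rw [hj, hx0, hxj i hi]; exact (hxcomm i hi).symm
      · rw [hxj i hi, hxj j hj]; exact hU.pf.comm i j
    · intro i
      by_cases hi : i = i₀
      · rw [hi, hx0, hf0]; exact U.lft_el _
      · rw [hxj i hi, hfj i hi]; exact hU.lft i
    · intro i j v
      by_cases hi : i = i₀ <;> by_cases hj : j = i₀
      · rw [hi, hj]
      · obtain ⟨a, ha⟩ := hS j hj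
        rw [hi, hf0, hfj j hj, ha, ha, h.act_phi_smul]
      · obtain ⟨a, ha⟩ := hS i hi
        rw [hj, hf0, hfj i hi, ha, ha, h.act_phi_smul]
      · rw [hfj i hi, hfj j hj]; exact hU.comm i j v
    · intro i
      by_cases hi : i = i₀
      · refine ⟨1, fun v => ?_⟩
        rw [hi, hf0, hr0, pow_one, iterate_act', ← map_pow, hys, map_one, act_one]
      · rw [hfj i hi, hrj i hi]; exact hU.ord i
  have hcov' : H106.RC.Cov Ω x' := by
    intro ω
    rcases h.mrule hU hcov hl h0 hcomm hS ω with h4 | ⟨j, hj, hjω⟩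
    · exact ⟨i₀, by rw [hx0]; exact h4 y⟩
    · exact ⟨j, by rw [hxj j hj]; exact hjω⟩
  -- the two halves
  let W : Submodule F (Fin n → F) := (Submodule.span K {ψ e}).restrictScalars F
  let W' : Submodule F (Fin n → F) := (Submodule.span K {ψ e'}).restrictScalars F
  have hW : ∀ v, v ∈ W ↔ ∃ a : K, ψ (a • e) = v := by
    intro v
    rw [Submodule.restrictScalars_mem, Submodule.mem_span_singleton]
    simp only [map_smul]
  have hW' : ∀ v, v ∈ W' ↔ ∃ a : K, ψ (a • e') = v := by
    intro v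
    rw [Submodule.restrictScalars_mem, Submodule.mem_span_singleton]
    simp only [map_smul]
  have hTS : TS q W := by
    intro v hv w hw
    obtain ⟨a, rfl⟩ := (hW v).1 hv
    obtain ⟨c, rfl⟩ := (hW w).1 hw
    rw [h.tr, herm_smul_left, herm_smul_right, h1, mul_zero, mul_zero, map_zero]
  have hTS' : TS q W' := by
    intro v hv w hw
    obtain ⟨a, rfl⟩ := (hW' v).1 hv
    obtain ⟨c, rfl⟩ := (hW' w).1 hw
    rw [h.tr, herm_smul_left, herm_smul_right, h2, mul_zero, mul_zero, map_zero]
  have hC : IsCompl W W' := by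
    constructor
    · rw [Submodule.disjoint_def]
      intro v hv hv'
      obtain ⟨a, rfl⟩ := (hW v).1 hv
      obtain ⟨c, hc⟩ := (hW' _).1 hv'
      have h4 := ψ.injective hc
      have h5 : a • e + (-c) • e' = 0 := by rw [neg_smul, ← h4, add_neg_cancel]
      rw [(hyp_indep hK h1 h2 h3 h5).1, zero_smul, map_zero]
    · rw [codisjoint_iff, eq_top_iff]
      intro v _
      obtain ⟨w, rfl⟩ := ψ.surjective v
      obtain ⟨a, c, rfl⟩ := hyp_coord hK h1 h2 h3 w
      rw [map_add]
      exact Submodule.add_mem_sup ((hW _).2 ⟨a, rfl⟩) ((hW' _).2 ⟨c, rfl⟩)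
  have hdim := finrank_of_ts h.hF hTS hTS' hC
  refine hD U x' f' r' hU' hcov' ⟨W, W', hTS, hTS', hC, ?_, Or.inl ?_⟩
  · intro i
    by_cases hi : i = i₀
    · rw [hi, hf0]
      constructor
      · intro v hv
        obtain ⟨a, rfl⟩ := (hW v).1 hv
        rw [h.act_phi', act_smul, hy1, smul_smul]
        exact (hW _).2 ⟨_, rfl⟩
      · intro v hv
        obtain ⟨a, rfl⟩ := (hW' v).1 hv
        rw [h.act_phi', act_smul, hy2, smul_smul]
        exact (hW' _).2 ⟨_, rfl⟩
    · obtain ⟨a, ha⟩ := hS i hi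
      rw [hfj i hi]
      constructor
      · intro v hv
        rw [ha]
        exact (Submodule.span K {ψ e}).smul_mem a hv
      · intro v hv
        rw [ha]
        exact (Submodule.span K {ψ e'}).smul_mem a hv
  · refine (hsm U.hF U.hn U.h32 hIH).2.2.2.1 _ hdim ?_
    rintro ⟨h4, -⟩
    omega

end fld

end Cfsg.Agent.H993.RC
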