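import Cfsg.Agent.H993.RC.TwoK

/-!
# S3510, box E10, case B: hyperbolic pairs and split torus elements of `SU_2(K)` (helper993)
-/

set_option autoImplicit false

namespace Cfsg.Agent.H993.RC

open Matrix Module Cfsg Cfsg.Agent.LieClassical.HermBasic Cfsg.Agent.LieClassical.HermSiegel
  Cfsg.Agent.ClassicalGeometry.PSUAutBasic Cfsg.Agent.ClassicalGeometry.PSUAutCount Cfsg.Agent.H380.RC

section tor

variable {K : Type*} [Field K] [Fintype K] {Q : ℕ}

/-- a hyperbolic pair of `K^2` -/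
theorem exists_hyp (hK : Fintype.card K = Q ^ 2) : ∃ e e' : Fin 2 → K, hermForm 2 K Q e e = 0 ∧
    hermForm 2 K Q e' e' = 0 ∧ hermForm 2 K Q e e' = 1 := by
  obtain ⟨p, p', a, b, -, -, -, h1, h2, h3⟩ :=
    Cfsg.Agent.LieClassical.HermGen.exists_hyp_pair hK (i := (0 : Fin 2)) (j := 1) (by decide)
  exact ⟨p, p', h1, h2, h3⟩

variable {e e' : Fin 2 → K}

theorem hyp_swap (hK : Fintype.card K = Q ^ 2) (h3 : hermForm 2 K Q e e' = 1) : hermForm 2 K Q e' e = 1 := by
  rw [herm_swap hK, h3, one_pow]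

theorem hyp_indep (hK : Fintype.card K = Q ^ 2) (h1 : hermForm 2 K Q e e = 0) (h2 : hermForm 2 K Q e' e' = 0)
    (h3 : hermForm 2 K Q e e' = 1) {a b : K} (hab : a • e + b • e' = 0) : a = 0 ∧ b = 0 := by
  constructor
  · have h4 := congrArg (fun v => hermForm 2 K Q v e') hab
    simpa only [herm_add_left, herm_smul_left, h2, h3, mul_one, mul_zero, add_zero, herm_zero_left] using h4
  · have h4 := congrArg (fun v => hermForm 2 K Q v e) hab
    simpa only [herm_add_left, herm_smul_left, h1, hyp_swap hK h3, mul_one, mul_zero, zero_add, herm_zero_left] using h4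

/-- coordinates -/
theorem hyp_coord (hK : Fintype.card K = Q ^ 2) (h1 : hermForm 2 K Q e e = 0) (h2 : hermForm 2 K Q e' e' = 0)
    (h3 : hermForm 2 K Q e e' = 1) (v : Fin 2 → K) : ∃ a b : K, v = a • e + b • e' := by
  have hli : LinearIndependent K ![e, e'] := by
    rw [LinearIndependent.pair_iff]
    intro a b hab
    exact hyp_indep hK h1 h2 h3 hab
  have hspan := hli.span_eq_top_of_card_eq_finrank (by simp)
  have hv : v ∈ Submodule.span K (Set.range ![e, e']) := by rw [hspan]; trivial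
  rw [Matrix.range_cons, Matrix.range_cons, Matrix.range_empty, Set.union_empty, Set.singleton_union,
    Submodule.mem_span_pair] at hv
  obtain ⟨a, b, h⟩ := hv
  exact ⟨a, b, h.symm⟩

theorem inv_trace_zero (hK : Fintype.card K = Q ^ 2) {μ : K} (hμ : μ + μ ^ Q = 0) : -μ⁻¹ + (-μ⁻¹) ^ Q = 0 := by
  have h1 : μ ^ Q = -μ := (neg_eq_of_add_eq_zero_right hμ).symm
  rw [neg_pow_q hK, inv_pow, h1, inv_neg, neg_neg, neg_add_cancel]

/-- the Weyl element -/
theorem exists_weyl (hK : Fintype.card K = Q ^ 2) (h1 : hermForm 2 K Q e e = 0) (h2 : hermForm 2 K Q e' e' = 0)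
    (h3 : hermForm 2 K Q e e' = 1) {μ : K} (hμ : μ + μ ^ Q = 0) (hμ0 : μ ≠ 0) :
    ∃ w : SU 2 K Q, act w e = (-μ⁻¹) • e' ∧ act w e' = μ • e := by
  have a1 : act (transv hK e h1 μ hμ) e = e := by rw [act_transv, h1, mul_zero, zero_smul, add_zero]
  have a2 : act (transv hK e h1 μ hμ) e' = e' + μ • e := by rw [act_transv, hyp_swap hK h3, mul_one]
  have a3 : act (transv hK e' h2 (-μ⁻¹) (inv_trace_zero hK hμ)) e = e + (-μ⁻¹) • e' := by rw [act_transv, h3, mul_one]
  have a4 : act (transv hK e' h2 (-μ⁻¹) (inv_trace_zero hK hμ)) e' = e' := by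
    rw [act_transv, h2, mul_zero, zero_smul, add_zero]
  have h4 : -μ⁻¹ * μ = -1 := by rw [neg_mul, inv_mul_cancel₀ hμ0]
  have h5 : μ * -μ⁻¹ = -1 := by rw [mul_neg, mul_inv_cancel₀ hμ0]
  refine ⟨transv hK e h1 μ hμ * transv hK e' h2 (-μ⁻¹) (inv_trace_zero hK hμ) * transv hK e h1 μ hμ, ?_, ?_⟩
  · rw [act_mul, act_mul, a1, a3, act_add, act_smul, a1, a2, smul_add, smul_smul, h4]
    module
  · rw [act_mul, act_mul, a2, act_add, act_smul, a4, a3, smul_add, smul_smul, h5, act_add, act_add, act_smul,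
      act_smul, a1, a2]
    module

/-- the torus element -/
theorem exists_tor (hK : Fintype.card K = Q ^ 2) (h1 : hermForm 2 K Q e e = 0) (h2 : hermForm 2 K Q e' e' = 0)
    (h3 : hermForm 2 K Q e e' = 1) {b : K} (hb : b ^ Q = b) (hb0 : b ≠ 0) :
    ∃ y : SU 2 K Q, act y e = b • e ∧ act y e' = b⁻¹ • e' := by
  obtain ⟨τ, hτ0, hτ⟩ := exists_trace_zero_ne hK
  obtain ⟨w, hw1, hw2⟩ := exists_weyl hK h1 h2 h3 hτ hτ0
  obtain ⟨w', hw1', hw2'⟩ := exists_weyl hK h1 h2 h3 (μ := b * τ) (by rw [mul_pow, hb, ← mul_add, hτ, mul_zero])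
    (mul_ne_zero hb0 hτ0)
  have h4 : act w⁻¹ e = τ⁻¹ • e' := by
    symm
    rw [← act_eq_iff, act_smul, hw2, smul_smul, inv_mul_cancel₀ hτ0, one_smul]
  have h5 : act w⁻¹ e' = (-τ) • e := by
    symm
    rw [← act_eq_iff, act_smul, hw1, smul_smul, neg_mul_neg, mul_inv_cancel₀ hτ0, one_smul]
  refine ⟨w' * w⁻¹, ?_, ?_⟩
  · rw [act_mul, h4, act_smul, hw2', smul_smul, mul_comm b, ← mul_assoc, inv_mul_cancel₀ hτ0, one_mul]
  · rw [act_mul, h5, act_smul, hw1', smul_smul, neg_mul_neg, mul_inv, mul_comm τ, mul_assoc, inv_mul_cancel₀ hτ0,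
      mul_one]

end tor

end Cfsg.Agent.H993.RC
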